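import Cfsg.Agent.Blocks.PrincipalSection
import Cfsg.Agent.Blocks.ExistsModular
import Cfsg.Agent.SmallSimple.SelfCentSum
import Cfsg.Agent.H620.PNorm

/-!
# Zeros of the characters outside the principal block (helper984)

* `sum_sq_principal` : for a `p`-element `z` whose centralizer has a normal `p`-complement, the sum
  of `‖χ z‖²` over the principal `p`-block is the `p`-part of `#C(z)`.
* `eq_zero_of_not_mem` : if `C(x)` is a `p`-group then the characters outside the principal
  `p`-block vanish at `x`.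
* `exists_not_mem` : if `C(u)` has a normal `p`-complement and is not a `p`-group, then there is a
  character outside the principal `p`-block.
* `vPow` : both together give `VPow p G`.
-/

set_option autoImplicit false

open Cfsg Cfsg.Agent.Blocks.Basic Cfsg.Agent.Blocks.Local
open scoped ComplexConjugate

namespace Cfsg.Agent.H984.PV.Blk

universe u

variable {G : Type u} [Group G] [Finite G] {p : ℕ} [Fact p.Prime] {M : Ideal AlgInt}

/-- The sum of the `‖χ z‖²` over the principal block. -/
theorem sum_sq_principal (hM : IsPModular p M) (z : G) (hz : ∃ k : ℕ, orderOf z = p ^ k)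
    (hnc : ∃ k : ℕ, (pPrimeCore p (Subgroup.centralizer ({z} : Set G))).index = p ^ k) :
    (∑ᶠ χ ∈ principalBlock M G, ‖(χ : G → ℂ) z‖ ^ 2 : ℝ) =
      ((p ^ (Nat.card (Subgroup.centralizer ({z} : Set G))).factorization p : ℕ) : ℝ) := by
  have hp : p.Prime := Fact.out
  have h0 : ¬ p ∣ orderOf (1 : Subgroup.centralizer ({z} : Set G)) := by
    rw [orderOf_one]
    exact fun h => hp.one_lt.ne' (Nat.dvd_one.1 h)
  have h1 := Blocks.PrincipalSection.sum_principalBlock_section hM z hz
    (H := Subgroup.centralizer ({z} : Set G)) rfl 1 1 h0 h0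
  rw [Blocks.PrincipalSection.sum_principalBlock_of_pComplement hM hnc h0 h0] at h1
  simp only [OneMemClass.coe_one, mul_one] at h1
  have h2 := Blocks.PrincipalSection.finsum_norm_sq (principalBlock M G) z
  rw [h1] at h2
  exact_mod_cast h2

theorem nc_of_isPGroup {K : Type*} [Group K] [Finite K] (hK : IsPGroup p K) :
    ∃ k : ℕ, (pPrimeCore p K).index = p ^ k := by
  obtain ⟨n, hn⟩ := IsPGroup.iff_card.1 hK
  have h1 : (pPrimeCore p K).index ∣ p ^ n := by
    rw [← hn]
    exact Subgroup.index_dvd_card _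
  obtain ⟨k, -, hk⟩ := (Nat.dvd_prime_pow Fact.out).1 h1
  exact ⟨k, hk⟩

theorem split_sum (z : G) (B : Set (IrrCharacter G)) :
    (∑ᶠ χ ∈ B, ‖(χ : G → ℂ) z‖ ^ 2 : ℝ) + (∑ᶠ χ ∈ Bᶜ, ‖(χ : G → ℂ) z‖ ^ 2 : ℝ) =
      Nat.card (Subgroup.centralizer ({z} : Set G)) := by
  classical
  have : Finite (IrrCharacter G) := Characters.Core.finite_irr
  have := Fintype.ofFinite (IrrCharacter G)
  rw [← SmallSimple.SelfCentSum.sum_norm_sq z, finsum_mem_eq_toFinset_sum,
    finsum_mem_eq_toFinset_sum, Set.toFinset_compl]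
  exact Finset.sum_add_sum_compl _ _

/-- The characters outside the principal block vanish at `x` when `C(x)` is a `p`-group. -/
theorem eq_zero_of_not_mem (hM : IsPModular p M) (x : G) (hx : ∃ k : ℕ, orderOf x = p ^ k)
    (hC : IsPGroup p (Subgroup.centralizer ({x} : Set G))) (χ : IrrCharacter G)
    (hχ : χ ∉ principalBlock M G) : (χ : G → ℂ) x = 0 := by
  classical
  have : Finite (IrrCharacter G) := Characters.Core.finite_irr
  have := Fintype.ofFinite (IrrCharacter G)
  have h1 := sum_sq_principal hM x hx (nc_of_isPGroup hC)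
  have h2 := split_sum x (principalBlock M G)
  obtain ⟨n, hn⟩ := IsPGroup.iff_card.1 hC
  rw [h1, hn, Nat.factorization_pow_self Fact.out] at h2
  have h3 : (∑ᶠ χ ∈ (principalBlock M G)ᶜ, ‖(χ : G → ℂ) x‖ ^ 2 : ℝ) = 0 := by linarith
  rw [finsum_mem_eq_toFinset_sum] at h3
  have h4 := (Finset.sum_eq_zero_iff_of_nonneg (fun i _ => sq_nonneg _)).1 h3 χ (by simpa using hχ)
  simpa using h4

/-- There is a character outside the principal block when `C(u)` has a normal `p`-complement and
is not a `p`-group. -/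
theorem exists_not_mem (hM : IsPModular p M) (u : G) (hu : ∃ k : ℕ, orderOf u = p ^ k)
    (hnc : ∃ k : ℕ, (pPrimeCore p (Subgroup.centralizer ({u} : Set G))).index = p ^ k)
    (hne : ¬ IsPGroup p (Subgroup.centralizer ({u} : Set G))) :
    ∃ χ : IrrCharacter G, χ ∉ principalBlock M G := by
  classical
  by_contra hcon
  push Not at hcon
  have h1 := sum_sq_principal hM u hu hnc
  have h2 := split_sum u (principalBlock M G)
  have h3 : (principalBlock M G)ᶜ = ∅ := by
    rw [Set.compl_empty_iff]
    exact Set.eq_univ_of_forall hcon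
  rw [h1, h3, finsum_mem_empty, add_zero] at h2
  exact hne (IsPGroup.iff_card.2 ⟨_, by exact_mod_cast h2.symm⟩)

/-- The criterion. -/
theorem vPow (x : G) (hx : ∃ k : ℕ, orderOf x = p ^ k)
    (hC : IsPGroup p (Subgroup.centralizer ({x} : Set G)))
    (u : G) (hu : ∃ k : ℕ, orderOf u = p ^ k)
    (hnc : ∃ k : ℕ, (pPrimeCore p (Subgroup.centralizer ({u} : Set G))).index = p ^ k)
    (hne : ¬ IsPGroup p (Subgroup.centralizer ({u} : Set G))) : H620.PNorm.VPow p G := by
  obtain ⟨M, hM⟩ := Blocks.ExistsModular.exists_isPModular (p := p) Fact.out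
  obtain ⟨χ, hχ⟩ := exists_not_mem hM u hu hnc hne
  refine ⟨x, hx, χ, fun α => eq_zero_of_not_mem hM (α x) ?_ ?_ χ hχ⟩
  · obtain ⟨k, hk⟩ := hx
    exact ⟨k, by rw [MulEquiv.orderOf_eq, hk]⟩
  · intro g
    have hg : α.symm g.1 ∈ Subgroup.centralizer ({x} : Set G) := by
      rw [Subgroup.mem_centralizer_singleton_iff]
      apply α.injective
      have := Subgroup.mem_centralizer_singleton_iff.1 g.2
      rw [map_mul, map_mul, MulEquiv.apply_symm_apply]
      exact this
    obtain ⟨k, hk⟩ := hC ⟨_, hg⟩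
    refine ⟨k, Subtype.ext ?_⟩
    have h1 : (α.symm g.1) ^ p ^ k = 1 := congrArg Subtype.val hk
    rw [← map_pow] at h1
    have h2 := congrArg α h1
    rw [MulEquiv.apply_symm_apply, map_one] at h2
    exact h2

end Cfsg.Agent.H984.PV.Blk
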