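import Cfsg.Agent.KFacts.HN.CentTwoHN

/-!
# An element of order 8 of HN whose centraliser is a 2-group (helper984)

`xx` has `xx ^ 4 = W0`; `pow_of_comm` : everything that commutes with `xx` has `32`nd power `1`.
-/

set_option autoImplicit false

namespace Cfsg.Agent.H984.PV.HNx

open Cfsg.Agent.HN.Pres Cfsg.Agent.HN.P1408 Cfsg.Agent.HN.H0Basic Cfsg.Agent.HN.XMat
open Cfsg.Agent.HN.XStruct Cfsg.Agent.HN.XWords Cfsg.Agent.HN.XQuot Cfsg.Agent.HN.FusGen Cfsg.Agent.HN.XInst
open Cfsg.Agent.KFacts.HN Cfsg.Agent.KFacts.HN.PCard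

/-- the element of order 8 -/
def xx : Cfsg.Spor.HN := r Q 32 * evw Γ [1, 1]

/-- its matrix -/
def XM : ℕ := mw [1, 1]

/-- its word -/
def xw : List ℕ := rmw 32 ++ ew [1, 1]

theorem xx_eq : xx = V xw := by
  rw [xx, xw, V_append, V_rmw, V_ew]

theorem xx_comm : W0 * xx = xx * W0 := by
  rw [xx, ← mul_assoc, cwr, mul_assoc, cwe, mul_assoc]

theorem xx_pow4 : xx ^ 4 = W0 := by
  have h : xx ^ 4 = V (xw ++ (xw ++ (xw ++ xw))) := by
    rw [V_append, V_append, V_append, ← xx_eq]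
    simp only [pow_succ, pow_zero, one_mul, mul_assoc]
  rw [h]
  exact V_eq (by decide +kernel)

theorem orderOf_xx : orderOf xx = 2 ^ 3 := by
  have h2 : Fact (Nat.Prime 2) := ⟨Nat.prime_two⟩
  refine orderOf_eq_prime_pow (n := 2) ?_ ?_
  · change ¬ xx ^ 4 = 1
    rw [xx_pow4]
    exact W0_ne_one
  · change xx ^ 8 = 1
    rw [show (8 : ℕ) = 4 * 2 from rfl, pow_mul, xx_pow4, pow_two, W0_sq]

theorem acts_xx : Acts k (π W0 xx) XM := by
  have h := hyp
  have e : π W0 xx = r k 32 * evw γ [1, 1] := P_nf (θ := MonoidHom.id Cfsg.Spor.HN) 32 [1, 1]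
  rw [e]
  exact h.toBas.acts_rmul (h.toBas.acts_evw _) _

/-- the eighth power -/
def p8 (M : ℕ) : ℕ := force (mul M M) fun A => force (mul A A) fun B => mul B B

theorem chk : S5M.all (fun A => DM.all (fun B => force (mul A B) (fun M =>
    bif Nat.beq (mul M XM) (mul XM M) then Nat.beq (p8 M) MI else true))) = true := by decide +kernel

/-- **The centraliser of `xx` is a 2-group.** -/
theorem pow_of_comm (s : Cfsg.Spor.HN) (hs : s * xx = xx * s) : s ^ 2 ^ 5 = 1 := by
  have h := hyp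
  have B := h.toBas
  have h0 : s * W0 = W0 * s := by
    have h1 : Commute s (xx ^ 4) := Commute.pow_right hs 4
    rw [xx_pow4] at h1
    exact h1
  obtain ⟨m1, _, w, hw, w', hw', hX⟩ := nf_exists (π W0 s)
  have hA : Acts k (π W0 s) (mul (mw w) (mw w')) := by
    rw [hX]
    exact B.acts_mul (B.acts_rmul (B.acts_evw w) m1) (B.acts_evw w')
  set M := mul (mw w) (mw w') with hM
  have hcomm : mul M XM = mul XM M := by
    have e : π W0 s * π W0 xx = π W0 xx * π W0 s := CentTwoHN.π_comm h0 xx_comm.symm hs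
    have A1 := B.acts_mul hA acts_xx
    have A2 := B.acts_mul acts_xx hA
    rw [e] at A1
    exact pack_ext (mul_lt _ _) (mul_lt _ _) fun i hi => B.acts_unique A1 A2 hi
  have h8 : p8 M = MI := by
    have h1 := List.all_eq_true.1 (List.all_eq_true.1 chk _ (mem_S5M hw)) _ (mem_DM hw')
    rw [force_eq, ← hM, hcomm, Nat.beq_refl, cond_true] at h1
    exact Nat.eq_of_beq_eq_true h1
  have hA8 : Acts k (π W0 s ^ 8) MI := by
    have A2 := B.acts_mul hA hA
    have A4 := B.acts_mul A2 A2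
    have A8 := B.acts_mul A4 A4
    have e : π W0 s * π W0 s * (π W0 s * π W0 s) * (π W0 s * π W0 s * (π W0 s * π W0 s)) = π W0 s ^ 8 := by
      simp only [pow_succ, pow_zero, one_mul, mul_assoc]
    rw [e] at A8
    rw [p8, force_eq, force_eq] at h8
    rw [← h8]
    exact A8
  have hR : π W0 s ^ 8 ∈ Cfsg.Agent.HN.XStruct.R h.toBas := by
    apply h.mem_R_of_comm
    intro i hi
    have h1 := hA8 i hi
    rw [row_MI hi, Bas.r_pow hi] at h1
    calc π W0 s ^ 8 * k i = π W0 s ^ 8 * ((π W0 s ^ 8)⁻¹ * k i * π W0 s ^ 8) := by rw [h1]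
      _ = k i * π W0 s ^ 8 := by group
  have h16 : π W0 s ^ 16 = 1 := by
    have h1 := h.f_sq _ hR
    rw [← h1, ← pow_add]
  have hπ : ∀ n : ℕ, π W0 (s ^ n) = π W0 s ^ n := by
    intro n
    induction n with
    | zero => rw [pow_zero, pow_zero]; exact π_one
    | succ n ih =>
      rw [pow_succ, pow_succ, π_mul (Commute.pow_left h0 n) h0, ih]
  have h1 := hπ 16
  rw [h16, π_eq_one_iff W0_sq (Commute.pow_left h0 16)] at h1
  change s ^ 32 = 1
  rw [show (32 : ℕ) = 16 * 2 from rfl, pow_mul]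
  rcases h1 with h1 | h1
  · rw [h1, one_pow]
  · rw [h1, pow_two, W0_sq]

end Cfsg.Agent.H984.PV.HNx
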