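import Cfsg.Agent.H984.PV.Blk
import Cfsg.Agent.H984.PV.HNx
import Cfsg.Agent.H984.PV.HNuCert

/-!
# A vanishing 2-element of the Harada-Norton group (helper984)

`HNx.xx` has order 8 and its centraliser is a 2-group, so that all characters outside the principal
2-block vanish there (and at its images under automorphisms). The element `hw uw` of order 8 has a
centraliser of order 40 or 80 with a normal 2-complement, so that there is a character outside the
principal 2-block.
-/

set_option autoImplicit false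

open Cfsg

namespace Cfsg.Agent.H984.PV.HN2

open Cfsg.Agent.HN.Pres Cfsg.Agent.HN.P1408 Cfsg.Agent.HN.H0Basic
open Cfsg.Agent.H984.PV.HNuCert

universe v

/-- A group of order at most 80 with an element of order 40 has a normal 2-complement of order
divisible by 5. -/
theorem comp_of_forty {C : Type*} [Group C] [Finite C] (w : C) (hw : orderOf w = 40)
    (hC : Nat.card C ≤ 80) :
    (∃ k : ℕ, (pPrimeCore 2 C).index = 2 ^ k) ∧ ¬ IsPGroup 2 C := by
  have hZ : Nat.card (Subgroup.zpowers w) = 40 := by rw [Nat.card_zpowers, hw]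
  have h1 := (Subgroup.zpowers w).card_mul_index
  rw [hZ] at h1
  have hidx : (Subgroup.zpowers w).index = 1 ∨ (Subgroup.zpowers w).index = 2 := by
    have h2 : 0 < Nat.card C := Nat.card_pos
    omega
  have hn : (Subgroup.zpowers w).Normal := by
    rcases hidx with h | h
    · rw [Subgroup.index_eq_one.1 h]; infer_instance
    · exact Subgroup.normal_of_index_eq_two h
  have hn8 : (Subgroup.zpowers (w ^ 8)).Normal := by
    constructor
    rintro _ ⟨n, rfl⟩ g
    obtain ⟨k, hk⟩ := Subgroup.mem_zpowers_iff.1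
      (hn.conj_mem w (Subgroup.mem_zpowers w) g)
    refine Subgroup.mem_zpowers_iff.2 ⟨n * k, ?_⟩
    have h3 : g * (w ^ 8) ^ n * g⁻¹ = ((g * w * g⁻¹) ^ 8) ^ n := by
      rw [conj_pow, conj_zpow]
    change _ = g * (w ^ 8) ^ n * g⁻¹
    rw [h3, ← hk, ← zpow_natCast, ← zpow_natCast, ← zpow_mul, ← zpow_mul, ← zpow_mul]
    congr 1
    ring
  have h5 : Nat.card (Subgroup.zpowers (w ^ 8)) = 5 := by
    rw [Nat.card_zpowers, orderOf_pow, hw]
    norm_num
  have hle : Subgroup.zpowers (w ^ 8) ≤ pPrimeCore 2 C :=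
    Lib.Cores.le_pPrimeCore hn8 (by rw [h5]; decide)
  have h6 := (Subgroup.zpowers (w ^ 8)).card_mul_index
  rw [h5] at h6
  have h7 : (pPrimeCore 2 C).index ∣ (Subgroup.zpowers (w ^ 8)).index := Subgroup.index_dvd_of_le hle
  have h8 : (Subgroup.zpowers (w ^ 8)).index ∣ 2 ^ 4 := by
    rcases hidx with h | h
    · rw [h] at h1
      have : (Subgroup.zpowers (w ^ 8)).index = 8 := by omega
      rw [this]; decide
    · rw [h] at h1
      have : (Subgroup.zpowers (w ^ 8)).index = 16 := by omega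
      rw [this]; decide
  refine ⟨?_, fun hp => ?_⟩
  · obtain ⟨k, -, hk⟩ := (Nat.dvd_prime_pow Nat.prime_two).1 (h7.trans h8)
    exact ⟨k, hk⟩
  · obtain ⟨n, hn⟩ := IsPGroup.iff_card.1 hp
    have h9 : 5 ∣ 2 ^ n := by
      rw [← hn, ← h6]
      exact dvd_mul_right _ _
    have h10 := Nat.Prime.dvd_of_dvd_pow Nat.prime_five h9
    omega

theorem ww_pow20 : hw ww ^ 20 = τ := by
  have h : hw (ww ++ (ww ++ (ww ++ (ww ++ (ww ++ (ww ++ (ww ++ (ww ++ (ww ++ (ww ++ (ww ++ (ww ++
      (ww ++ (ww ++ (ww ++ (ww ++ (ww ++ (ww ++ (ww ++ ww))))))))))))))))))) = hw [0, 0] :=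
    hw_eq (by decide +kernel)
  simp only [hw_append, hw_τ] at h
  simp only [pow_succ, pow_zero, one_mul, mul_assoc]
  exact h

theorem ww_pow8 : hw ww ^ 8 ≠ 1 := by
  have h : hw (ww ++ (ww ++ (ww ++ (ww ++ (ww ++ (ww ++ (ww ++ ww))))))) ≠ hw [] :=
    hw_ne (p := 7) (by decide +kernel) (by decide +kernel) (by decide) (by decide +kernel)
  simp only [hw_append, hw_nil] at h
  simp only [pow_succ, pow_zero, one_mul, mul_assoc]
  exact h

theorem orderOf_ww : orderOf (hw ww) = 40 := by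
  have h40 : hw ww ^ 40 = 1 := by
    rw [show (40 : ℕ) = 20 * 2 from rfl, pow_mul, ww_pow20, pow_two, τ_mul_τ]
  refine (Nat.dvd_antisymm (orderOf_dvd_of_pow_eq_one h40) ?_)
  by_contra hcon
  have hd := orderOf_dvd_of_pow_eq_one h40
  have h20 : ¬ orderOf (hw ww) ∣ 20 := by
    rw [orderOf_dvd_iff_pow_eq_one, ww_pow20]
    exact τ_ne_one
  have h8 : ¬ orderOf (hw ww) ∣ 8 := by
    rw [orderOf_dvd_iff_pow_eq_one]
    exact ww_pow8
  have hle : orderOf (hw ww) ≤ 40 := Nat.le_of_dvd (by norm_num) hd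
  revert hcon hd h20 h8
  generalize orderOf (hw ww) = m at hle
  interval_cases m <;> decide

theorem uw_eq : hw uw = hw ww ^ 5 := by
  simp only [uw, hw_append]
  simp only [pow_succ, pow_zero, one_mul, mul_assoc]

/-- the image of the element of order 40 -/
noncomputable def W : Cfsg.Spor.HN := Cfsg.Agent.HN.NormalH.ψ (hw ww)

/-- the element of order 8 -/
noncomputable def U : Cfsg.Spor.HN := Cfsg.Agent.HN.NormalH.ψ (hw uw)

theorem U_eq : U = W ^ 5 := by
  rw [U, W, uw_eq, map_pow]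

theorem orderOf_W : orderOf W = 40 := by
  rw [W, orderOf_injective _ KFacts.HN.emb.inj, orderOf_ww]

theorem orderOf_U : orderOf U = 2 ^ 3 := by
  rw [U_eq, orderOf_pow, orderOf_W]
  decide

theorem U_pow4 : U ^ 4 = Cfsg.Agent.HN.NormalH.ψ τ := by
  rw [U_eq, ← pow_mul, W, ← map_pow, ww_pow20]

theorem card_centralizer_U : Nat.card (Subgroup.centralizer ({U} : Set Cfsg.Spor.HN)) ≤ 80 := by
  have hfin := finite_H0
  refine le_trans ?_ card_centralizer_u_le
  have hex : ∀ g : Subgroup.centralizer ({U} : Set Cfsg.Spor.HN),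
      ∃ h : Subgroup.centralizer ({hw uw} : Set H0), Cfsg.Agent.HN.NormalH.ψ h = g := by
    rintro ⟨g, hg⟩
    have h1 : Commute g U := Subgroup.mem_centralizer_singleton_iff.1 hg
    have h2 : Commute g (U ^ 4) := h1.pow_right 4
    rw [U_pow4] at h2
    obtain ⟨h, rfl⟩ := KFacts.HN.emb.cent g h2
    refine ⟨⟨h, ?_⟩, rfl⟩
    rw [Subgroup.mem_centralizer_singleton_iff]
    apply KFacts.HN.emb.inj
    rw [map_mul, map_mul]
    exact h1
  choose f hf using hex
  refine Nat.card_le_card_of_injective f fun a b hab => ?_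
  apply Subtype.ext
  rw [← hf a, ← hf b, hab]

theorem hn_2' : H620.PNorm.VPow 2 Cfsg.Spor.HN := by
  have hfin := KFacts.HN.finite_HN
  have h2 : Fact (Nat.Prime 2) := ⟨Nat.prime_two⟩
  have hWC : W ∈ Subgroup.centralizer ({U} : Set Cfsg.Spor.HN) := by
    rw [Subgroup.mem_centralizer_singleton_iff, U_eq]
    exact (Commute.refl W).pow_right 5
  have hW : orderOf (⟨W, hWC⟩ : Subgroup.centralizer ({U} : Set Cfsg.Spor.HN)) = 40 := by
    rw [← orderOf_W]
    exact (orderOf_injective (Subgroup.subtype _) (Subgroup.subtype_injective _) ⟨W, hWC⟩).symm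
  have h3 := comp_of_forty _ hW card_centralizer_U
  refine Blk.vPow HNx.xx ⟨3, HNx.orderOf_xx⟩ ?_ U ⟨3, orderOf_U⟩ h3.1 h3.2
  rintro ⟨s, hs⟩
  exact ⟨5, Subtype.ext (HNx.pow_of_comm s (Subgroup.mem_centralizer_singleton_iff.1 hs))⟩

/-- The Harada-Norton group, `p = 2`. -/
theorem hn_2 {K : Type v} [Group K] (h : Spor.IsoHN K) : H620.PNorm.VPow 2 K := by
  obtain ⟨e⟩ := h
  exact hn_2'.mulEquiv e.symm

end Cfsg.Agent.H984.PV.HN2
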