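import Cfsg.Agent.H984.PV.Tool
import Cfsg.Agent.H710.Spor.Ly
import Cfsg.Agent.H620.PNorm

/-!
# A vanishing 2-element of the Lyons group (helper984)

In `C(t) = 2.A_11` let `y` be an element of order 24 over the cycle type `4 6` (`#C(y) ≤ 24`) and
`x = y ^ 3` of order 8 (`#C(x) ≤ 96`, rational). The group has at least 33 classes, and
`96 + 8 * 24 < 9 * 33`.
-/

set_option autoImplicit false
set_option Elab.async false
set_option linter.unusedSectionVars false

namespace Cfsg.Agent.H984.PV.Ly2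

open Cfsg Subgroup Equiv Cfsg.Agent.H713 Cfsg.Agent.H710.VanCount Cfsg.Agent.SporRec.TwoAn
open Cfsg.Agent.H710.Spor.Ly

universe u v

/-- `t24 ^ 3` -/
def τ : Perm (Fin 11) := t24 ^ 3

theorem τ_eq : τ = (swap 0 3 * swap 3 2 * swap 2 1 * swap 4 7) * (swap 5 8 * swap 6 9) := by
  decide +kernel

theorem typeτ : τ.cycleType = {2, 2, 2, 4} := by decide +kernel

theorem cardτ : Nat.card (centralizer ({τ} : Set (Perm (Fin 11)))) = 192 := by
  rw [Equiv.Perm.nat_card_centralizer, typeτ]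
  decide

theorem hasOddτ : Cfsg.Agent.CpAutLy.Cov.HasOdd τ := by
  refine ⟨cyc 0 4, ?_, ?_⟩ <;> decide +kernel

section cover

variable {C : Type*} [Group C] (K : Cover (Fin 11) C)

include K

/-- the element over `(5 6)(8 9)` conjugates `x` to `x z` -/
theorem exists_c {x : C} (hx : K.π x = τ) : ∃ c : C, c * x * c⁻¹ = x * K.z ∧
    K.π c = swap 5 6 * swap 8 9 := by
  obtain ⟨u, hu⟩ := K.exists_lift (σ := swap 0 3 * swap 3 2 * swap 2 1 * swap 4 7)
    (Perm.mem_alternatingGroup.2 (by decide +kernel))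
  obtain ⟨v, hv⟩ := K.exists_lift (σ := swap 5 8 * swap 6 9)
    (Perm.mem_alternatingGroup.2 (by decide +kernel))
  obtain ⟨c, hc⟩ := K.exists_lift (σ := swap 5 6 * swap 8 9)
    (Perm.mem_alternatingGroup.2 (by decide +kernel))
  have hcu : c * u = u * c := by
    apply K.commute_of_disjoint
    rw [hc, hu]
    intro i
    revert i
    decide +kernel
  have hcv : v * c = c * v * K.z := by
    have hv' : K.π v = swap 5 8 * swap 6 9 := hv
    exact K.anticomm (a := 5) (b := 6) (c := 8) (d := 9) (by decide) (by decide) (by decide)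
      (by decide) (by decide) (by decide) hc hv'
  have hcv' : c * v = v * c * K.z := by
    rw [hcv, mul_assoc, K.z_mul_z, mul_one]
  have h1 : c * (u * v) * c⁻¹ = u * v * K.z := by
    rw [mul_inv_eq_iff_eq_mul, ← mul_assoc, hcu, mul_assoc u c v, hcv', mul_assoc (u * v),
      ← K.z_comm c]
    simp only [mul_assoc]
  have h2 : K.π x = K.π (u * v) := by rw [hx, τ_eq, map_mul, hu, hv]
  refine ⟨c, ?_, hc⟩
  rcases K.lift_eq h2 with h | h
  · rw [h, h1]
  · rw [h]
    have : c * (u * v * K.z) * c⁻¹ = (c * (u * v) * c⁻¹) * K.z := by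
      simp only [mul_assoc]
      rw [← K.z_comm c⁻¹]
    rw [this, h1]

theorem card_x {x : C} (hx : K.π x = τ) : Nat.card (centralizer ({x} : Set C)) ≤ 96 := by
  obtain ⟨c, hc, hcπ⟩ := exists_c K hx
  have hlt : (centralizer ({x} : Set C)).map K.π <
      centralizer ({K.π x} : Set (Perm (Fin 11))) ⊓ alternatingGroup (Fin 11) := by
    refine lt_of_le_of_ne (Cfsg.Agent.CpAutLy.Cov.map_le K x) fun h => ?_
    have h1 : K.π c ∈ (centralizer ({x} : Set C)).map K.π := by
      rw [h]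
      refine ⟨?_, K.mem_alternating c⟩
      refine mem_centralizer_singleton_iff.2 ?_
      have h2 := congrArg K.π hc
      rw [map_mul, map_mul, map_mul, K.π_z, mul_one, map_inv, mul_inv_eq_iff_eq_mul] at h2
      exact h2
    obtain ⟨g, hg, hgc⟩ := h1
    have hg' : g * x = x * g := mem_centralizer_singleton_iff.1 hg
    have h3 : c * x = x * c := by
      rcases K.lift_eq hgc.symm with h | h
      · rw [h, hg']
      · rw [h, mul_assoc, ← K.z_comm x, ← mul_assoc, hg', mul_assoc]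
    rw [h3, mul_inv_cancel_right] at hc
    exact K.mul_z_ne x hc.symm
  have h4 : Nat.card ↥(centralizer ({K.π x} : Set (Perm (Fin 11))) ⊓ alternatingGroup (Fin 11)) = 96 := by
    have h5 := Cfsg.Agent.CpAutLy.Cov.card_inf_alternating (σ := K.π x) (by rw [hx]; exact hasOddτ)
    rw [hx, cardτ] at h5
    rw [hx]
    omega
  have h6 := Subgroup.card_dvd_of_le hlt.le
  rw [h4] at h6
  have h7 : Nat.card ↥((centralizer ({x} : Set C)).map K.π) ≠ 96 := by
    intro h8
    apply hlt.ne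
    exact Subgroup.eq_of_le_of_card_ge hlt.le (by rw [h4, h8])
  have h9 : Nat.card ↥((centralizer ({x} : Set C)).map K.π) ≤ 48 := by
    obtain ⟨k, hk⟩ := h6
    rcases k with _ | _ | k
    · omega
    · omega
    · nlinarith
  rw [← Cfsg.Agent.CpAutLy.Cov.card_split K]
  omega

/-- rationality in the cover -/
theorem rat_x {x : C} (hx : K.π x = τ) (ho : orderOf x = 8) (h4 : x ^ 4 = K.z) :
    ∀ m : ℕ, m.Coprime (orderOf x) → IsConj x (x ^ m) := by
  apply rat_eight ho
  · obtain ⟨c, hc, -⟩ := exists_c K hx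
    rw [isConj_iff]
    refine ⟨c, ?_⟩
    rw [hc, pow_succ', h4]
  · obtain ⟨g, hg⟩ := K.exists_lift (σ := swap 1 3 * swap 4 7)
      (Perm.mem_alternatingGroup.2 (by decide +kernel))
    have h1 : K.π (g * x * g⁻¹) = K.π (x ^ 3) := by
      rw [map_mul, map_mul, map_inv, map_pow, hg, hx]
      decide +kernel
    rcases K.lift_eq h1 with h | h
    · exact Or.inl (isConj_iff.2 ⟨g, h⟩)
    · refine Or.inr (isConj_iff.2 ⟨g, ?_⟩)
      rw [h, ← h4, ← pow_add]

end cover

/-! ### Classes -/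

section mt

variable {G : Type u} [Group G] [Finite G] (L : Cfsg.Agent.TypeM.Two.MT 11 G)

/-- `g` has order `n`; if `n` is even it is in `C(t)`, of cycle type `m`, and `g ^ (n / 2) = t`. -/
def Hit (n : ℕ) (m : Multiset ℕ) (g : G) : Prop :=
  orderOf g = n ∧ (n % 2 = 0 → ∃ y : centralizer ({L.t} : Set G), (y : G) = g ∧
    y ^ (n / 2) = L.K.z ∧ (L.K.π y).cycleType = m) ∧ (n % 2 = 1 → m = 0)

theorem Hit.eq {n n' : ℕ} {m m' : Multiset ℕ} {g g' : G} (h : Hit L n m g) (h' : Hit L n' m' g')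
    (hc : IsConj g g') : n = n' ∧ m = m' := by
  have h1 : n = n' := by
    rw [← h.1, ← h'.1]
    exact Cfsg.Agent.H419.Count.orderOf_eq_of_isConj hc
  subst h1
  refine ⟨rfl, ?_⟩
  rcases Nat.mod_two_eq_zero_or_one n with h2 | h2
  · obtain ⟨y, hy, hyn, hym⟩ := h.2.1 h2
    obtain ⟨y', hy', hyn', hym'⟩ := h'.2.1 h2
    rw [isConj_iff] at hc
    obtain ⟨c, hc⟩ := hc
    have h3 : (y : G) ^ (n / 2) = L.t := (congrArg Subtype.val hyn).trans L.hz
    have h3' : (y' : G) ^ (n / 2) = L.t := (congrArg Subtype.val hyn').trans L.hz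
    have h4 : c * L.t * c⁻¹ = L.t := by
      rw [← hy, ← hy'] at hc
      conv_rhs => rw [← h3', ← hc, conj_pow, h3]
    have h5 : c ∈ centralizer ({L.t} : Set G) := by
      rw [mem_centralizer_singleton_iff]
      exact mul_inv_eq_iff_eq_mul.1 h4
    have h6 : (⟨c, h5⟩ : centralizer ({L.t} : Set G)) * y * (⟨c, h5⟩)⁻¹ = y' := by
      apply Subtype.ext
      show c * (y : G) * c⁻¹ = y'
      rw [hy, hc, hy']
    rw [← hym, ← hym', ← h6, map_mul, map_mul, map_inv, Perm.cycleType_conj]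
  · rw [h.2.2 h2, h'.2.2 h2]

theorem Hit.odd {n : ℕ} (hn : n % 2 = 1) {g : G} (h : orderOf g = n) : Hit L n 0 g :=
  ⟨h, fun h2 => by omega, fun _ => rfl⟩

theorem card_ge (S : Finset (ℕ × Multiset ℕ)) (h : ∀ s ∈ S, ∃ g : G, Hit L s.1 s.2 g) :
    S.card ≤ Nat.card (ConjClasses G) := by
  classical
  choose! f hf using h
  have h1 := Cfsg.Agent.H419.Count.card_le_of_pairwise (G := G) (ι := S) (fun s => f s.1) ?_
  · simpa using h1
  · intro s s' hss
    have h2 := Hit.eq L (hf s.1 s.2) (hf s'.1 s'.2) hss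
    exact Subtype.ext (Prod.ext h2.1 h2.2)

/-- `σ` even, of odd order `n`: classes of order `n` and `2 n` -/
theorem hit_odd {σ : Perm (Fin 11)} (hσ : Perm.sign σ = 1) {n : ℕ} (hn : Odd n)
    (ho : orderOf σ = n) : ∃ g : G, Hit L (n * 2) σ.cycleType g := by
  obtain ⟨y, hy, -, h1, h2⟩ := odd_orders L.K (Perm.mem_alternatingGroup.2 hσ) hn ho
  refine ⟨((y * L.K.z : centralizer ({L.t} : Set G)) : G), by rw [Subgroup.orderOf_coe, h1], ?_,
    fun h3 => by omega⟩
  intro _
  refine ⟨y * L.K.z, rfl, ?_, ?_⟩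
  · rw [Nat.mul_div_cancel _ (by norm_num), h2]
  · rw [map_mul, L.K.π_z, mul_one, hy]

theorem hit_even {σ : Perm (Fin 11)} (hσ : Perm.sign σ = 1) (n : ℕ)
    (a b c d : Fin 11) (hd : [a, b, c, d].Nodup) (h : σ ^ n = swap a b * swap c d)
    (ho : orderOf σ = n * 2) : ∃ g : G, Hit L (n * 2 * 2) σ.cycleType g := by
  simp only [List.nodup_cons, List.mem_cons, List.not_mem_nil, or_false, not_or] at hd
  obtain ⟨y, hy, h1, h2⟩ := even_orders L.K (Perm.mem_alternatingGroup.2 hσ) hd.1.1 hd.1.2.1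
    hd.1.2.2 hd.2.1.1 hd.2.1.2 hd.2.2.1 h ho
  refine ⟨(y : G), by rw [Subgroup.orderOf_coe, h1], ?_, fun h3 => by omega⟩
  intro _
  refine ⟨y, rfl, ?_, by rw [hy]⟩
  rw [Nat.mul_div_cancel _ (by norm_num), h2]

end mt

/-! ### More permutations -/

def s33 : Perm (Fin 11) := cyc 0 3 * cyc 3 3
def s333 : Perm (Fin 11) := cyc 0 3 * cyc 3 3 * cyc 6 3
def s55 : Perm (Fin 11) := cyc 0 5 * cyc 5 5
def s533 : Perm (Fin 11) := cyc 0 5 * cyc 5 3 * cyc 8 3
def s2233 : Perm (Fin 11) := cyc 0 3 * cyc 3 3 * (swap 6 7 * swap 8 9)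
def s423 : Perm (Fin 11) := cyc 0 4 * swap 4 5 * cyc 6 3

theorem sgn' : Perm.sign s33 = 1 ∧ Perm.sign s333 = 1 ∧ Perm.sign s55 = 1 ∧ Perm.sign s533 = 1 ∧
    Perm.sign s2233 = 1 ∧ Perm.sign s423 = 1 ∧ Perm.sign τ = 1 := by
  decide +kernel

theorem o33 : orderOf s33 = 3 := orderOf_of_hasOrd (by norm_num) (by decide +kernel)
theorem o333 : orderOf s333 = 3 := orderOf_of_hasOrd (by norm_num) (by decide +kernel)
theorem o55 : orderOf s55 = 5 := orderOf_of_hasOrd (by norm_num) (by decide +kernel)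
theorem o533 : orderOf s533 = 15 := orderOf_of_hasOrd (by norm_num) (by decide +kernel)
theorem o2233 : orderOf s2233 = 6 := orderOf_of_hasOrd (by norm_num) (by decide +kernel)
theorem o423 : orderOf s423 = 12 := orderOf_of_hasOrd (by norm_num) (by decide +kernel)
theorem oτ : orderOf τ = 4 := orderOf_of_hasOrd (by norm_num) (by decide +kernel)

theorem p2233 : s2233 ^ 3 = swap 6 7 * swap 8 9 := by decide +kernel
theorem p423 : s423 ^ 6 = swap 0 2 * swap 1 3 := by decide +kernel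
theorem pτ : τ ^ 2 = swap 0 2 * swap 1 3 := by decide +kernel

/-- the keys of the classes -/
def keys : List (ℕ × Multiset ℕ) :=
  [(2, {}), (6, {3}), (6, {3, 3}), (6, {3, 3, 3}), (10, {5}), (10, {5, 5}), (30, {5, 3}),
   (30, {5, 3, 3}), (14, {7}), (42, {7, 3}), (18, {9}), (22, {11}),
   (4, {2, 2}), (12, {2, 2, 3}), (12, {2, 2, 3, 3}), (20, {2, 2, 5}), (28, {2, 2, 7}),
   (8, {2, 4}), (24, {2, 4, 3}), (40, {2, 4, 5}), (8, {2, 2, 2, 4}), (24, {4, 6}),
   (1, 0), (3, 0), (5, 0), (7, 0), (9, 0), (11, 0), (15, 0), (21, 0), (31, 0), (37, 0), (67, 0)]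

theorem keys_nodup : keys.Nodup := by decide +kernel

theorem keys_len : keys.length = 33 := by decide +kernel

theorem card_classes : 33 ≤ Nat.card (ConjClasses Cfsg.Spor.Ly) := by
  have hfin : Finite Cfsg.Spor.Ly := Cfsg.Agent.Ly.Setup.finite_ly
  obtain ⟨L⟩ := Cfsg.Agent.TypeM.FactsLy.exists_mt_ly
  have hcard : Nat.card Cfsg.Spor.Ly = 51765179004000000 := Cfsg.Agent.Ly.Setup.card_ly
  have hprime : ∀ p : ℕ, p.Prime → p ∣ 51765179004000000 → p % 2 = 1 →
      ∃ g : Cfsg.Spor.Ly, Hit L p 0 g := by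
    intro p hp hd h2
    have : Fact p.Prime := ⟨hp⟩
    obtain ⟨g, hg⟩ := exists_prime_orderOf_dvd_card' (G := Cfsg.Spor.Ly) p (by rw [hcard]; exact hd)
    exact ⟨g, Hit.odd L h2 hg⟩
  have h := card_ge L keys.toFinset ?_
  · rw [List.toFinset_card_of_nodup keys_nodup, keys_len] at h
    exact h
  · obtain ⟨s3, s5, s7, s9, s11, s15, s21, s4, s8, s12, s20, s24, s28, s40⟩ := sgn
    obtain ⟨e33, e333, e55, e533, e2233, e423, eτ⟩ := sgn'
    intro s hs
    rw [List.mem_toFinset] at hs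
    simp only [keys, List.mem_cons, List.not_mem_nil, or_false] at hs
    have hodd : ∀ n : ℕ, n % 2 = 1 → (∃ g : Cfsg.Spor.Ly, orderOf g = n) →
        ∃ g : Cfsg.Spor.Ly, Hit L n 0 g := fun n h2 ⟨g, hg⟩ => ⟨g, Hit.odd L h2 hg⟩
    have hty : ∀ (σ : Perm (Fin 11)) (m : Multiset ℕ) (n : ℕ), σ.cycleType = m →
        (∃ g : Cfsg.Spor.Ly, Hit L n σ.cycleType g) → ∃ g : Cfsg.Spor.Ly, Hit L n m g := by
      intro σ m n hm h
      rwa [hm] at h
    rcases hs with rfl | rfl | rfl | rfl | rfl | rfl | rfl | rfl | rfl | rfl | rfl | rfl | rfl |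
      rfl | rfl | rfl | rfl | rfl | rfl | rfl | rfl | rfl | rfl | rfl | rfl | rfl | rfl | rfl |
      rfl | rfl | rfl | rfl | rfl
    · exact hty 1 _ 2 (by decide +kernel) (hit_odd L (n := 1) (by decide +kernel) (by decide) orderOf_one)
    · exact hty t3 _ 6 (by decide +kernel) (hit_odd L (n := 3) s3 (by decide) o3)
    · exact hty s33 _ 6 (by decide +kernel) (hit_odd L (n := 3) e33 (by decide) o33)
    · exact hty s333 _ 6 (by decide +kernel) (hit_odd L (n := 3) e333 (by decide) o333)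
    · exact hty t5 _ 10 (by decide +kernel) (hit_odd L (n := 5) s5 (by decide) o5)
    · exact hty s55 _ 10 (by decide +kernel) (hit_odd L (n := 5) e55 (by decide) o55)
    · exact hty t15 _ 30 (by decide +kernel) (hit_odd L (n := 15) s15 (by decide) o15)
    · exact hty s533 _ 30 (by decide +kernel) (hit_odd L (n := 15) e533 (by decide) o533)
    · exact hty t7 _ 14 (by decide +kernel) (hit_odd L (n := 7) s7 (by decide) o7)
    · exact hty t21 _ 42 (by decide +kernel) (hit_odd L (n := 21) s21 (by decide) o21)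
    · exact hty t9 _ 18 (by decide +kernel) (hit_odd L (n := 9) s9 (by decide) o9)
    · exact hty t11 _ 22 (by decide +kernel) (hit_odd L (n := 11) s11 (by decide) o11)
    · exact hty t4 _ 4 (by decide +kernel) (hit_even L s4 1 0 1 2 3 (by decide) p4 o4)
    · exact hty t12 _ 12 (by decide +kernel) (hit_even L s12 3 3 4 5 6 (by decide) p12 o12)
    · exact hty s2233 _ 12 (by decide +kernel) (hit_even L e2233 3 6 7 8 9 (by decide) p2233 o2233)
    · exact hty t20 _ 20 (by decide +kernel) (hit_even L s20 5 5 6 7 8 (by decide) p20 o20)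
    · exact hty t28 _ 28 (by decide +kernel) (hit_even L s28 7 7 8 9 10 (by decide) p28 o28)
    · exact hty t8 _ 8 (by decide +kernel) (hit_even L s8 2 0 2 1 3 (by decide) p8 o8)
    · exact hty s423 _ 24 (by decide +kernel) (hit_even L e423 6 0 2 1 3 (by decide) p423 o423)
    · exact hty t40 _ 40 (by decide +kernel) (hit_even L s40 10 0 2 1 3 (by decide) p40 o40)
    · exact hty τ _ 8 (by decide +kernel) (hit_even L eτ 2 0 2 1 3 (by decide) pτ oτ)
    · exact hty t24 _ 24 (by decide +kernel) (hit_even L s24 6 0 2 1 3 (by decide) p24 o24)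
    · exact hodd 1 (by norm_num) ⟨1, orderOf_one⟩
    · exact hodd 3 (by norm_num) (odd_pair L s3 (by decide) o3).1
    · exact hodd 5 (by norm_num) (odd_pair L s5 (by decide) o5).1
    · exact hodd 7 (by norm_num) (odd_pair L s7 (by decide) o7).1
    · exact hodd 9 (by norm_num) (odd_pair L s9 (by decide) o9).1
    · exact hodd 11 (by norm_num) (odd_pair L s11 (by decide) o11).1
    · exact hodd 15 (by norm_num) (odd_pair L s15 (by decide) o15).1
    · exact hodd 21 (by norm_num) (odd_pair L s21 (by decide) o21).1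
    · exact hprime 31 (by norm_num) (by norm_num) (by norm_num)
    · exact hprime 37 (by norm_num) (by norm_num) (by norm_num)
    · exact hprime 67 (by norm_num) (by norm_num) (by norm_num)

section mt

variable {G : Type u} [Group G] [Finite G] (L : Cfsg.Agent.TypeM.Two.MT 11 G)

include L in
theorem exists_pair : ∃ x w : G, orderOf x = 8 ∧ w ^ 3 = x ∧
    Nat.card (centralizer ({x} : Set G)) ≤ 96 ∧ Nat.card (centralizer ({w} : Set G)) ≤ 24 ∧
    ∀ m : ℕ, m.Coprime (orderOf x) → IsConj x (x ^ m) := by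
  obtain ⟨y, hy, h1, h2⟩ := even_orders L.K (n := 6)
    (Perm.mem_alternatingGroup.2 sgn.2.2.2.2.2.2.2.2.2.2.2.1)
    (a := 0) (b := 2) (c := 1) (d := 3) (by decide) (by decide) (by decide) (by decide) (by decide)
    (by decide) p24 o24
  have hx : L.K.π (y ^ 3) = τ := by rw [map_pow, hy]; rfl
  have h4 : (y ^ 3) ^ 4 = L.K.z := by rw [← pow_mul]; exact h2
  have ho : orderOf (y ^ 3) = 8 := by
    rw [orderOf_pow' _ (by norm_num), h1]
    norm_num
  refine ⟨((y ^ 3 : centralizer ({L.t} : Set G)) : G), (y : G), by rw [Subgroup.orderOf_coe, ho],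
    rfl, ?_, ?_, ?_⟩
  · exact (card_centralizer_le L h4).trans (card_x L.K hx)
  · refine (card_centralizer_le L h2).trans ?_
    refine Nat.le_of_dvd (by norm_num) ?_
    rw [← card24, ← hy]
    exact Cfsg.Agent.CpAutLy.Cov.card_dvd L.K (by rw [hy]; exact hasOdd24)
  · intro m hm
    rw [Subgroup.orderOf_coe] at hm
    have h5 := rat_x L.K hx ho h4 m hm
    rw [isConj_iff] at h5 ⊢
    obtain ⟨c, hc⟩ := h5
    refine ⟨(c : G), ?_⟩
    have h6 := congrArg Subtype.val hc
    exact h6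

end mt

theorem ly_2' : Cfsg.Agent.H620.PNorm.VPow 2 Cfsg.Spor.Ly := by
  have hfin : Finite Cfsg.Spor.Ly := Cfsg.Agent.Ly.Setup.finite_ly
  obtain ⟨L⟩ := Cfsg.Agent.TypeM.FactsLy.exists_mt_ly
  obtain ⟨x, w, ho, hw, hx, hc, hr⟩ := exists_pair L
  have hk := card_classes
  have hv : Van Cfsg.Spor.Ly x := van_of_pow Nat.prime_three hw hr (by omega)
  exact ⟨x, ⟨3, by rw [ho]; norm_num⟩,
    Cfsg.Agent.H419.Count.vz_of_inner hv fun α => by
      obtain ⟨g, hg⟩ := Cfsg.Agent.TypeM.OutLyFin.inner_ly α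
      exact ⟨g, hg.symm⟩⟩

/-- The Lyons group, `p = 2`. -/
theorem ly_2 {K : Type v} [Group K] (h : Spor.IsoLy K) : Cfsg.Agent.H620.PNorm.VPow 2 K := by
  obtain ⟨e⟩ := h
  exact ly_2'.mulEquiv e.symm

end Cfsg.Agent.H984.PV.Ly2
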