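import Cfsg.Agent.H710.VanCount
import Cfsg.Agent.H419.Count
import Cfsg.Agent.J3Type.CharTools

/-!
# Zeros of characters at rational elements that are `r`-th powers (helper984)

* `card_ne_zero_le` : at most `#C(w)` irreducible characters do not vanish at `w`.
* `dvd_of_zero` : if `χ w = 0` and `w ^ r = x` is rational then `r ∣ χ x`.
* `dvd_of_two` : if `x` is a rational `p`-element then `χ x ≡ χ 1` modulo `p`.
* `van_of_two` : `x` rational 2-element, `x = w ^ r`, `r` odd:
  `#C(x) + (r² - 1) #C(w) < r² k(G) + 3 e` with `e` characters of even degree gives a zero at `x`.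
-/

set_option autoImplicit false

namespace Cfsg.Agent.H984.PV

open Cfsg Cfsg.Agent.Characters.Core Cfsg.Agent.H713
open Cfsg.Agent.OddOrderCharacters.PF13.SumBound

universe u

/-- At most `#C(w)` irreducible characters do not vanish at `w`. -/
theorem card_ne_zero_le {G : Type u} [Group G] [Finite G] (w : G) :
    Nat.card {χ : IrrCharacter G // (χ : G → ℂ) w ≠ 0} ≤
      Nat.card (Subgroup.centralizer ({w} : Set G)) := by
  classical
  have := Fintype.ofFinite G
  have := finite_irr (G := G)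
  have := Fintype.ofFinite (IrrCharacter G)
  set X : Finset G := Finset.univ.filter fun g => ∃ m : ℕ, m.Coprime (Nat.card G) ∧ w ^ m = g with hX
  have hwX : w ∈ X := by
    rw [hX, Finset.mem_filter]
    exact ⟨Finset.mem_univ _, 1, Nat.coprime_one_left _, pow_one w⟩
  have hXpos : 0 < X.card := Finset.card_pos.2 ⟨w, hwX⟩
  have hclosed : ∀ g ∈ X, ∀ m : ℕ, m.Coprime (Nat.card G) → g ^ m ∈ X := by
    intro g hg m hm
    rw [hX, Finset.mem_filter] at hg ⊢
    obtain ⟨-, k, hk, rfl⟩ := hg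
    exact ⟨Finset.mem_univ _, k * m, Nat.Coprime.mul_left hk hm, by rw [pow_mul]⟩
  have hcent : ∀ g ∈ X, Nat.card (Subgroup.centralizer ({g} : Set G)) =
      Nat.card (Subgroup.centralizer ({w} : Set G)) := by
    intro g hg
    rw [hX, Finset.mem_filter] at hg
    obtain ⟨-, k, hk, rfl⟩ := hg
    have h2 : Subgroup.centralizer ({w ^ k} : Set G) = Subgroup.centralizer ({w} : Set G) := by
      have hk' : k.Coprime (orderOf w) := hk.coprime_dvd_right (orderOf_dvd_natCard w)
      ext x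
      rw [Subgroup.mem_centralizer_singleton_iff, Subgroup.mem_centralizer_singleton_iff]
      constructor
      · intro hx
        have h1 : w ∈ Subgroup.zpowers (w ^ k) := by
          rw [mem_zpowers_pow_iff]
          exact hk'
        rw [← mem_powers_iff_mem_zpowers] at h1
        obtain ⟨l, hl⟩ := h1
        have h3 : Commute x ((w ^ k) ^ l) := Commute.pow_right (show Commute x (w ^ k) from hx) l
        have h4 : (w ^ k) ^ l = w := hl
        rw [h4] at h3
        exact h3
      · intro hx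
        exact Commute.pow_right (show Commute x w from hx) k
    rw [h2]
  have key : ∀ χ : IrrCharacter G, (χ : G → ℂ) w ≠ 0 → (X.card : ℝ) ≤
      ∑ g ∈ X, ‖(χ : G → ℂ) g‖ ^ 2 := by
    intro χ hne
    have h1 := card_le_sum_sq (G := G) (Finset.univ : Finset (Fin 1)) (fun _ => (χ : G → ℂ)) ?_ X
      hclosed ?_
    · refine h1.trans (le_of_eq ?_)
      refine Finset.sum_congr rfl fun g _ => ?_
      rw [Finset.sum_const, Finset.card_univ, Fintype.card_fin, one_smul]
    · intro _ _
      exact isGeneralizedCharacter_def.2 ⟨_, 0, isIrr_isCharacter χ.2, isCharacter_zero,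
        by rw [sub_zero]⟩
    · intro g hg
      refine ⟨0, Finset.mem_univ _, ?_⟩
      rw [hX, Finset.mem_filter] at hg
      obtain ⟨-, k, hk, rfl⟩ := hg
      have hk' : k.Coprime (orderOf w) := hk.coprime_dvd_right (orderOf_dvd_natCard w)
      intro h0
      exact hne ((Cfsg.Agent.H710.VanCount.zero_pow_iff χ hk').1 h0)
  set N : Finset (IrrCharacter G) := Finset.univ.filter fun χ => (χ : G → ℂ) w ≠ 0 with hN
  have hNc : Nat.card {χ : IrrCharacter G // (χ : G → ℂ) w ≠ 0} = N.card := by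
    rw [Nat.card_eq_fintype_card, Fintype.card_subtype]
  rw [hNc]
  have h1 : (X.card : ℝ) * N.card ≤ ∑ χ ∈ N, ∑ g ∈ X, ‖(χ : G → ℂ) g‖ ^ 2 := by
    rw [mul_comm, ← nsmul_eq_mul, ← Finset.sum_const]
    refine Finset.sum_le_sum fun χ hχ => ?_
    rw [hN, Finset.mem_filter] at hχ
    exact key χ hχ.2
  have h2 : ∑ χ ∈ N, ∑ g ∈ X, ‖(χ : G → ℂ) g‖ ^ 2 ≤
      ∑ χ : IrrCharacter G, ∑ g ∈ X, ‖(χ : G → ℂ) g‖ ^ 2 := by
    refine Finset.sum_le_sum_of_subset_of_nonneg (Finset.subset_univ _) ?_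
    intro χ _ _
    exact Finset.sum_nonneg fun g _ => by positivity
  have h3 : ∑ χ : IrrCharacter G, ∑ g ∈ X, ‖(χ : G → ℂ) g‖ ^ 2 =
      (X.card : ℝ) * Nat.card (Subgroup.centralizer ({w} : Set G)) := by
    rw [Finset.sum_comm]
    have h4 : ∀ g ∈ X, ∑ χ : IrrCharacter G, ‖(χ : G → ℂ) g‖ ^ 2 =
        (Nat.card (Subgroup.centralizer ({w} : Set G)) : ℝ) := by
      intro g hg
      rw [Cfsg.Agent.SmallSimple.SelfCentSum.sum_norm_sq, hcent g hg]
    rw [Finset.sum_congr rfl h4, Finset.sum_const, nsmul_eq_mul]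
  have h5 : (X.card : ℝ) * N.card ≤
      (X.card : ℝ) * Nat.card (Subgroup.centralizer ({w} : Set G)) := by
    rw [← h3]
    exact h1.trans h2
  have h6 : (0 : ℝ) < X.card := by exact_mod_cast hXpos
  have h7 := le_of_mul_le_mul_left h5 h6
  exact_mod_cast h7

/-- If `χ` vanishes at `w` and `w ^ r = x` is rational then `r ∣ χ x`. -/
theorem dvd_of_zero {G : Type u} [Group G] [Finite G] {χ : G → ℂ} (hχ : IsCharacter G χ) {x w : G}
    {r : ℕ} (hr : r.Prime) (hw : w ^ r = x) (h0 : χ w = 0) {a : ℤ} (ha : χ x = a) :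
    (r : ℤ) ∣ a := by
  have h := Cfsg.Agent.J3Type.CharTools.int_congr hχ w hr (a := 0) (b := a) (by rw [h0, Int.cast_zero])
    (by rw [hw, ha])
  rw [zero_sub, dvd_neg] at h
  exact h

/-- The value at a `p`-element with an integral value is congruent to the degree. -/
theorem dvd_of_pow {G : Type u} [Group G] [Finite G] {χ : G → ℂ} (hχ : IsCharacter G χ) {x : G}
    {p : ℕ} (hp : p.Prime) (j : ℕ) (hx : x ^ p ^ j = 1) {a d : ℤ}
    (ha : χ x = a) (hd : χ 1 = d) : (p : ℤ) ∣ a - d := by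
  have key : ∀ j : ℕ, ∃ β : ℂ, IsIntegral ℤ β ∧ χ x ^ p ^ j = χ (x ^ p ^ j) + p * β := by
    intro j
    induction j with
    | zero => exact ⟨0, isIntegral_zero, by simp⟩
    | succ j ih =>
      obtain ⟨β, hβ, e⟩ := ih
      obtain ⟨γ, hγ, f⟩ := Cfsg.Agent.J3Type.CharTools.pow_congr hχ (x ^ p ^ j) hp
      obtain ⟨δ, hδ, e2⟩ := Cfsg.Agent.J3Type.CharTools.sum_pow_prime (Finset.univ : Finset (Fin 2))
        (fun i => if i = 0 then χ (x ^ p ^ j) else p * β)
        (fun i => by
          by_cases hi : i = 0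
          · simp only [hi, if_true]
            exact Characters.GaloisBasic.isIntegral_apply hχ _
          · simp only [hi, if_false]
            have : IsIntegral ℤ ((p : ℕ) : ℂ) := by
              have := isIntegral_algebraMap (R := ℤ) (A := ℂ) (x := (p : ℤ))
              simpa using this
            exact this.mul hβ) hp
      simp only [Fin.sum_univ_two, if_true, Fin.isValue, one_ne_zero, if_false] at e2
      have hpp : IsIntegral ℤ ((p : ℕ) : ℂ) := by
        have := isIntegral_algebraMap (R := ℤ) (A := ℂ) (x := (p : ℤ))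
        simpa using this
      obtain ⟨m, hm⟩ : ∃ m, p = m + 1 := ⟨p - 1, (Nat.succ_pred_eq_of_pos hp.pos).symm⟩
      refine ⟨γ + (p ^ m * β ^ p) + δ, ?_, ?_⟩
      · exact (hγ.add ((hpp.pow m).mul (hβ.pow p))).add hδ
      · rw [pow_succ p j, pow_mul, e, e2, f, ← pow_mul, mul_pow]
        have : (p : ℂ) ^ p = p * p ^ m := by
          conv_lhs => rw [show (p : ℂ) ^ p = (p : ℂ) ^ (m + 1) by rw [← hm]]
          rw [pow_succ]; ring
        rw [this]
        ring
  obtain ⟨β, hβ, e⟩ := key j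
  rw [hx, ha, hd] at e
  have h1 : ((a ^ p ^ j - d : ℤ) : ℂ) = p * β := by
    push_cast
    rw [e]; ring
  have h2 := Cfsg.Agent.J3Type.CharTools.dvd_of_integral hp.ne_zero hβ h1
  have h3 : ∀ j : ℕ, (p : ℤ) ∣ a ^ p ^ j - a := by
    intro j
    induction j with
    | zero => simp
    | succ j ih =>
      rw [pow_succ, pow_mul]
      have h4 := Cfsg.Agent.J3Type.CharTools.int_pow_congr (a ^ p ^ j) hp
      have : (a ^ p ^ j) ^ p - a = ((a ^ p ^ j) ^ p - a ^ p ^ j) + (a ^ p ^ j - a) := by ring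
      rw [this]
      exact dvd_add h4 ih
  have : a - d = (a ^ p ^ j - d) - (a ^ p ^ j - a) := by ring
  rw [this]
  exact dvd_sub h2 (h3 j)

/-- The main criterion, general form: `D` is a set of characters whose values at `x` are divisible
by `p`. -/
theorem van_gen {G : Type u} [Group G] [Finite G] {x w : G} {r p : ℕ} (hr : r.Prime) (hp : 0 < p)
    (hrp : r.Coprime p) (hw : w ^ r = x)
    (hrat : ∀ m : ℕ, m.Coprime (orderOf x) → IsConj x (x ^ m))
    (D : Set (IrrCharacter G))
    (hD : ∀ χ ∈ D, ∀ a : ℤ, (χ : G → ℂ) x = a → (p : ℤ) ∣ a)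
    (h : Nat.card (Subgroup.centralizer ({x} : Set G)) +
      (r ^ 2 - 1) * Nat.card (Subgroup.centralizer ({w} : Set G)) <
      r ^ 2 * Nat.card (ConjClasses G) + (p ^ 2 - 1) * Nat.card D) :
    Van G x := by
  classical
  by_contra hcon
  have h0 : ∀ χ : IrrCharacter G, (χ : G → ℂ) x ≠ 0 := fun χ h => hcon ⟨χ, h⟩
  have := finite_irr (G := G)
  have := Fintype.ofFinite (IrrCharacter G)
  choose v hv using fun χ : IrrCharacter G =>
    Cfsg.Agent.J3Type.CharTools.int_of_conj (isIrr_isCharacter χ.2) x hrat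
  have hv0 : ∀ χ, v χ ≠ 0 := by
    intro χ hz
    apply h0 χ
    rw [hv χ, hz, Int.cast_zero]
  have hsum : (∑ χ : IrrCharacter G, (v χ) ^ 2 : ℤ) =
      Nat.card (Subgroup.centralizer ({x} : Set G)) := by
    have h1 := Cfsg.Agent.SmallSimple.SelfCentSum.sum_norm_sq x
    have h2 : ((∑ χ : IrrCharacter G, (v χ) ^ 2 : ℤ) : ℝ) =
        ((Nat.card (Subgroup.centralizer ({x} : Set G)) : ℤ) : ℝ) := by
      push_cast
      rw [← h1]
      refine Finset.sum_congr rfl fun χ _ => ?_
      rw [hv χ, Complex.norm_intCast, sq_abs]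
    exact_mod_cast h2
  -- pointwise bound
  have hpt : ∀ χ : IrrCharacter G, (1 : ℤ) + (if (χ : G → ℂ) w = 0 then (r : ℤ) ^ 2 - 1 else 0) +
      (if χ ∈ D then (p : ℤ) ^ 2 - 1 else 0) ≤ (v χ) ^ 2 := by
    intro χ
    have hr1 : (1 : ℤ) ≤ (r : ℤ) ^ 2 := by
      have : (1 : ℤ) ≤ r := by exact_mod_cast hr.one_le
      nlinarith
    have hp1 : (1 : ℤ) ≤ (p : ℤ) ^ 2 := by
      have : (1 : ℤ) ≤ p := by exact_mod_cast hp
      nlinarith
    have hdvd : ∀ d : ℕ, (d : ℤ) ∣ v χ → (d : ℤ) ^ 2 ≤ (v χ) ^ 2 := by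
      intro d hd
      have h3 := Int.le_of_dvd (pow_pos (abs_pos.2 (hv0 χ)) 2)
        ((pow_dvd_pow_of_dvd ((dvd_abs _ _).2 hd) 2))
      rwa [sq_abs] at h3
    have hR : (χ : G → ℂ) w = 0 → (r : ℤ) ∣ v χ := fun hz =>
      dvd_of_zero (isIrr_isCharacter χ.2) hr hw hz (hv χ)
    have hP : χ ∈ D → (p : ℤ) ∣ v χ := fun hz => hD χ hz _ (hv χ)
    have hone : (1 : ℤ) ≤ (v χ) ^ 2 := by
      have := hdvd 1 (by simp)
      simpa using this
    split_ifs with h1 h2 h2
    · have h3 : ((r * p : ℕ) : ℤ) ∣ v χ := by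
        push_cast
        exact IsCoprime.mul_dvd (Nat.isCoprime_iff_coprime.2 hrp) (hR h1) (hP h2)
      have h4 := hdvd _ h3
      push_cast at h4
      nlinarith [mul_nonneg (sub_nonneg.2 hr1) (sub_nonneg.2 hp1)]
    · have := hdvd _ (hR h1)
      linarith
    · have := hdvd _ (hP h2)
      linarith
    · linarith
  have hs := Finset.sum_le_sum fun (χ : IrrCharacter G) (_ : χ ∈ Finset.univ) => hpt χ
  rw [hsum, Finset.sum_add_distrib, Finset.sum_add_distrib] at hs
  rw [Finset.sum_const, Finset.card_univ, ← Finset.sum_filter, ← Finset.sum_filter,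
    Finset.sum_const, Finset.sum_const] at hs
  simp only [nsmul_eq_mul, mul_one] at hs
  have hk : Fintype.card (IrrCharacter G) = Nat.card (ConjClasses G) := by
    rw [← card_irr, Nat.card_eq_fintype_card]
  have hDc : (Finset.univ.filter fun χ : IrrCharacter G => χ ∈ D).card = Nat.card D := by
    rw [← Nat.subtype_card]
    intro χ
    simp
  have hwc : (Finset.univ.filter fun χ : IrrCharacter G => (χ : G → ℂ) w = 0).card +
      Nat.card {χ : IrrCharacter G // (χ : G → ℂ) w ≠ 0} = Nat.card (ConjClasses G) := by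
    rw [← hk, Nat.card_eq_fintype_card, Fintype.card_subtype, ← Finset.card_univ]
    exact Finset.card_filter_add_card_filter_not _
  have hle := card_ne_zero_le w
  rw [hk, hDc] at hs
  set A := (Finset.univ.filter fun χ : IrrCharacter G => (χ : G → ℂ) w = 0).card
  set k := Nat.card (ConjClasses G)
  set cw := Nat.card (Subgroup.centralizer ({w} : Set G))
  set cx := Nat.card (Subgroup.centralizer ({x} : Set G))
  set n := Nat.card {χ : IrrCharacter G // (χ : G → ℂ) w ≠ 0}
  have hr1 : 1 ≤ r ^ 2 := Nat.one_le_pow _ _ hr.pos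
  have hp1 : 1 ≤ p ^ 2 := Nat.one_le_pow _ _ hp
  have hs' : k + (A * (r ^ 2 - 1)) + Nat.card D * (p ^ 2 - 1) ≤ cx := by
    zify [hr1, hp1]
    exact hs
  obtain ⟨R, hR⟩ : ∃ R, r ^ 2 = R + 1 := ⟨r ^ 2 - 1, (Nat.sub_add_cancel hr1).symm⟩
  rw [hR, Nat.add_sub_cancel] at hs' h
  have h5 : k * R ≤ (A + cw) * R := Nat.mul_le_mul_right _ (by omega)
  nlinarith

/-- For a rational 2-element (`r` an odd prime), with a set `D` of characters of even degree. -/
theorem van_of_two {G : Type u} [Group G] [Finite G] {x w : G} {r : ℕ} (hr : r.Prime) (hr2 : r ≠ 2)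
    (hw : w ^ r = x) {j : ℕ} (hx : x ^ 2 ^ j = 1)
    (hrat : ∀ m : ℕ, m.Coprime (orderOf x) → IsConj x (x ^ m))
    (D : Set (IrrCharacter G))
    (hD : ∀ χ ∈ D, ∃ d : ℤ, (χ : G → ℂ) 1 = d ∧ (2 : ℤ) ∣ d)
    (h : Nat.card (Subgroup.centralizer ({x} : Set G)) +
      (r ^ 2 - 1) * Nat.card (Subgroup.centralizer ({w} : Set G)) <
      r ^ 2 * Nat.card (ConjClasses G) + 3 * Nat.card D) :
    Van G x := by
  refine van_gen (p := 2) hr (by norm_num) ?_ hw hrat D ?_ (by simpa using h)
  · exact (Nat.coprime_primes hr Nat.prime_two).2 hr2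
  · intro χ hχ a ha
    obtain ⟨d, hd, h2⟩ := hD χ hχ
    have h3 := dvd_of_pow (isIrr_isCharacter χ.2) Nat.prime_two j hx ha hd
    have : a = (a - d) + d := by ring
    rw [this]
    exact dvd_add (by exact_mod_cast h3) h2

/-- For a rational element, without characters of even degree. -/
theorem van_of_pow {G : Type u} [Group G] [Finite G] {x w : G} {r : ℕ} (hr : r.Prime)
    (hw : w ^ r = x) (hrat : ∀ m : ℕ, m.Coprime (orderOf x) → IsConj x (x ^ m))
    (h : Nat.card (Subgroup.centralizer ({x} : Set G)) +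
      (r ^ 2 - 1) * Nat.card (Subgroup.centralizer ({w} : Set G)) <
      r ^ 2 * Nat.card (ConjClasses G)) :
    Van G x :=
  van_gen (p := 1) hr one_pos (Nat.coprime_one_right r) hw hrat ∅ (by simp) (by simpa using h)

/-- Elements of order 8 conjugate to their fifth and to their third or seventh power are rational. -/
theorem rat_eight {G : Type u} [Group G] {x : G} (ho : orderOf x = 8) (h5 : IsConj x (x ^ 5))
    (h3 : IsConj x (x ^ 3) ∨ IsConj x (x ^ 7)) :
    ∀ m : ℕ, m.Coprime (orderOf x) → IsConj x (x ^ m) := by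
  have hpow : ∀ {y z : G} (k : ℕ), IsConj y z → IsConj (y ^ k) (z ^ k) := by
    intro y z k h
    rw [isConj_iff] at h ⊢
    obtain ⟨c, hc⟩ := h
    exact ⟨c, by rw [← conj_pow, hc]⟩
  have h8 : x ^ 8 = 1 := by rw [← ho]; exact pow_orderOf_eq_one x
  have hmod : ∀ m : ℕ, x ^ m = x ^ (m % 8) := by
    intro m
    rw [← ho]
    exact (pow_mod_orderOf x m).symm
  have h37 : IsConj x (x ^ 3) ∧ IsConj x (x ^ 7) := by
    rcases h3 with h | h
    · refine ⟨h, ?_⟩
      have h1 := h5.trans (hpow 5 h)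
      rw [← pow_mul, hmod (3 * 5)] at h1
      exact h1
    · refine ⟨?_, h⟩
      have h1 := h5.trans (hpow 5 h)
      rw [← pow_mul, hmod (7 * 5)] at h1
      exact h1
  intro m hm
  rw [ho] at hm
  rw [hmod m]
  have h2 : ¬ 2 ∣ m := fun h => by
    have := Nat.dvd_gcd h (show 2 ∣ 8 by norm_num)
    rw [hm] at this
    norm_num at this
  have h4 : m % 8 = 1 ∨ m % 8 = 3 ∨ m % 8 = 5 ∨ m % 8 = 7 := by omega
  rcases h4 with h | h | h | h <;> rw [h]
  · rw [pow_one]
  · exact h37.1
  · exact h5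
  · exact h37.2

/-- If `#G / p` is not `-1` modulo `p` there are at least two classes of elements of order divisible
by `p` (`p` divides `#G` exactly once). -/
theorem two_classes {G : Type u} [Group G] [Finite G] {p : ℕ} [hp : Fact p.Prime]
    (hG : (Nat.card G).factorization p = 1) (hne : (Nat.card G / p) % p ≠ p - 1) :
    ∃ y z : G, p ∣ orderOf y ∧ p ∣ orderOf z ∧ ¬ IsConj y z := by
  by_contra hcon
  push Not at hcon
  have hpG : p ∣ Nat.card G := by
    have := Nat.ordProj_dvd (Nat.card G) p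
    rwa [hG, pow_one] at this
  obtain ⟨x, hx⟩ := exists_prime_orderOf_dvd_card' (G := G) p hpG
  have hxp : x ^ p = 1 := by rw [← hx]; exact pow_orderOf_eq_one x
  have hall : ∀ y : G, p ∣ orderOf y → orderOf y = p := by
    intro y hy
    rw [← hx]
    exact Cfsg.Agent.H419.Count.orderOf_eq_of_isConj (hcon y x hy (by rw [hx]))
  have h1 := card_centralizer_of_orders hG hall hx
  have h2 := card_fus_mul hG hx (c := 1) (by rw [h1, mul_one])
  rw [mul_one] at h2
  have h3 : (Cfsg.Agent.H713.Count.fus (p := p) x).card = p - 1 := by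
    have h4 : (Finset.univ.filter fun i : ZMod p => i ≠ 0).card = p - 1 := by
      rw [Finset.filter_ne', Finset.card_erase_of_mem (Finset.mem_univ _), Finset.card_univ, ZMod.card]
    rw [← h4]
    congr 1
    ext m
    rw [Cfsg.Agent.H713.Count.mem_fus, Finset.mem_filter]
    constructor
    · rintro ⟨h, -⟩
      exact ⟨Finset.mem_univ _, h⟩
    · rintro ⟨-, h⟩
      refine ⟨h, hcon x _ (by rw [hx]) ?_⟩
      have h5 : Nat.Coprime p m.val := by
        rw [Nat.coprime_comm]
        exact (ZMod.isUnit_iff_coprime m.val p).1 (by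
          rw [ZMod.natCast_val, ZMod.cast_id]
          exact isUnit_iff_ne_zero.2 h)
      rw [Nat.Coprime.orderOf_pow (by rw [hx]; exact h5), hx]
  apply hne
  have h4 : p - 1 < p := Nat.sub_lt hp.out.pos one_pos
  rw [← Nat.mod_eq_of_lt h4, ← h3]
  exact h2.symm

end Cfsg.Agent.H984.PV
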